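import Cfsg.Agent.H952.F4.Jord

/-!
# The cubic identity on the traceless part of the Albert algebra (lead, S5931, PLAN2)

`st x y = x × y + (1/3) T(x,y) 1`, over a field with `2, 3 ≠ 0`.

* `st_st_self` (I1) : `x * (x * x) = (2/3) T(x,x) x` for `tr1 x = 0`;
* `st_pol` : its polarization;
* `e4` (E4).
-/

set_option autoImplicit false
set_option linter.unusedSectionVars false

namespace Cfsg.Agent.R2.F4N

open Cfsg Cfsg.Lie Module
open Cfsg.Agent.ChevalleyStructure.E6Min.Tables Cfsg.Agent.ChevalleyStructure.E6Min.Basic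
open Cfsg.Agent.H952.F4 (u0 tr1 tf sh cr)
open Cfsg.Agent.H952.F4.Jord

universe u

variable {k : Type u} [Field k]

/-- the product on the traceless part -/
def st (x y : I27 → k) : I27 → k := cr x y + (tf x y / 3) • u0 k

theorem st_comm (x y : I27 → k) : st x y = st y x := by
  unfold st
  rw [cr_comm, tf_comm]

theorem st_add_left (x x' y : I27 → k) : st (x + x') y = st x y + st x' y := by
  unfold st
  rw [cr_add_left, tf_add_left, add_div, add_smul]
  abel

theorem st_smul_left (c : k) (x y : I27 → k) : st (c • x) y = c • st x y := by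
  unfold st
  rw [cr_smul_left, tf_smul_left, smul_add, smul_smul, mul_div_assoc]

theorem st_add_right (x y y' : I27 → k) : st x (y + y') = st x y + st x y' := by
  rw [st_comm, st_add_left, st_comm y, st_comm y']

theorem st_smul_right (c : k) (x y : I27 → k) : st x (c • y) = c • st x y := by
  rw [st_comm, st_smul_left, st_comm]

theorem st_zero_left (y : I27 → k) : st 0 y = 0 := by
  have := st_smul_left (0 : k) 0 y
  rwa [zero_smul, zero_smul] at this

theorem st_zero_right (y : I27 → k) : st y 0 = 0 := by rw [st_comm, st_zero_left]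

theorem tr1_st (h3 : (3 : k) ≠ 0) {x : I27 → k} (hx : tr1 x = 0) (y : I27 → k) : tr1 (st x y) = 0 := by
  unfold st
  rw [tr1_add, tr1_smul, tr1_cr, hx, tr1_u0]
  field_simp
  ring

theorem tf_u0_right (x : I27 → k) : tf x (u0 k) = tr1 x := by rw [tf_comm, tf_u0]

/-- the trilinear form -/
theorem tf_st (x y : I27 → k) {z : I27 → k} (hz : tr1 z = 0) : tf (st x y) z = tf (cr x y) z := by
  unfold st
  rw [tf_add_left, tf_smul_left, tf_u0, hz, mul_zero, add_zero]

theorem tf_st_assoc {x : I27 → k} (y : I27 → k) {z : I27 → k} (hx : tr1 x = 0) (hz : tr1 z = 0) :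
    tf (st x y) z = tf x (st y z) := by
  rw [tf_st x y hz, tf_comm x, st_comm y z, tf_st z y hx, tf_comm (cr z y), cr_comm z y, tf_cr]

theorem cr_sh (x : I27 → k) : cr (sh x) x = (tr1 x * tr1 (sh x) - cubicT x) • u0 k - tr1 x • sh x - tr1 (sh x) • x := by
  have h := cr_sh_cr x (u0 k)
  have h1 : cr x (u0 k) = tr1 x • u0 k - x := by rw [cr_comm, cr_u0]
  have h2 : cr (sh x) (u0 k) = tr1 (sh x) • u0 k - sh x := by rw [cr_comm, cr_u0]
  have h3 : cr (sh x) (cr x (u0 k)) = tr1 x • (tr1 (sh x) • u0 k - sh x) - cr (sh x) x := by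
    rw [h1, sub_eq_add_neg, cr_add_right, cr_smul_right, h2, ← neg_one_smul k x, cr_smul_right]
    module
  rw [h3, tf_u0_right] at h
  have h4 : cr (sh x) x = tr1 x • (tr1 (sh x) • u0 k - sh x) - (cubicT x • u0 k + tr1 (sh x) • x) := by
    rw [← h]; module
  rw [h4]
  module

/-- **(I1)** -/
theorem st_st_self (h2 : (2 : k) ≠ 0) (h3 : (3 : k) ≠ 0) {x : I27 → k} (hx : tr1 x = 0) :
    st x (st x x) = (2 / 3 * tf x x) • x := by
  have e1 : st x x = (2 : k) • sh x + (tf x x / 3) • u0 k := by
    unfold st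
    rw [cr_self]
  have e2 := tr1_sh x
  rw [hx] at e2
  have e3 : tr1 (sh x) = -(tf x x) / 2 := by
    field_simp
    linear_combination e2
  have e4 : tf x (sh x) = 3 * cubicT x := by rw [tf_comm, tf_sh_self]
  have e5 : cr x (u0 k) = -x := by
    rw [cr_comm, cr_u0, hx, zero_smul, zero_sub]
  rw [e1]
  unfold st
  rw [cr_add_right, cr_smul_right, cr_smul_right, cr_comm x (sh x), cr_sh, e5, tf_add_right, tf_smul_right,
    tf_smul_right, e4, tf_u0_right, hx, e3]
  have e6 : (2 * (3 * cubicT x) + tf x x / 3 * 0) / 3 = 2 * cubicT x := by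
    field_simp
    ring
  rw [e6]
  have e7 : (2 / 3 * tf x x : k) = tf x x - tf x x / 3 := by
    field_simp
    ring
  rw [e7]
  have e8 : (2 : k) * (-tf x x / 2) = - tf x x := by
    field_simp
  simp only [zero_mul, zero_sub, zero_smul, sub_zero, smul_sub, smul_neg, neg_smul, smul_smul, e8]
  module

/-- polarization in one variable -/
theorem st_pol2 (h2 : (2 : k) ≠ 0) (h3 : (3 : k) ≠ 0) {x y : I27 → k} (hx : tr1 x = 0) (hy : tr1 y = 0) :
    (2 : k) • st x (st x y) + st y (st x x) = (2 / 3 * tf x x) • y + (4 / 3 * tf x y) • x := by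
  have a1 := st_st_self h2 h3 (x := x + y) (by rw [tr1_add, hx, hy, add_zero])
  have a2 := st_st_self h2 h3 (x := x + (-1 : k) • y) (by rw [tr1_add, tr1_smul, hx, hy]; ring)
  have a3 := st_st_self h2 h3 hy
  simp only [st_add_left, st_add_right, st_smul_left, st_smul_right, tf_add_left, tf_add_right, tf_smul_left,
    tf_smul_right, st_comm y x, tf_comm y x] at a1 a2
  funext i
  have b1 := congrFun a1 i
  have b2 := congrFun a2 i
  have b3 := congrFun a3 i
  simp only [Pi.add_apply, Pi.smul_apply, smul_eq_mul] at b1 b2 b3 ⊢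
  have key : (2 : k) * (2 * st x (st x y) i + st y (st x x) i - (2 / 3 * tf x x * y i + 4 / 3 * tf x y * x i)) = 0 := by
    linear_combination b1 - b2 - 2 * b3
  exact sub_eq_zero.1 ((mul_eq_zero.1 key).resolve_left h2)

/-- **polarization of (I1)** -/
theorem st_pol (h2 : (2 : k) ≠ 0) (h3 : (3 : k) ≠ 0) {x y z : I27 → k} (hx : tr1 x = 0) (hy : tr1 y = 0)
    (hz : tr1 z = 0) : st x (st y z) + st y (st x z) + st z (st x y) =
      (2 / 3 * tf x y) • z + (2 / 3 * tf x z) • y + (2 / 3 * tf y z) • x := by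
  have a1 := st_pol2 h2 h3 (x := x + z) (y := y) (by rw [tr1_add, hx, hz, add_zero]) hy
  have a2 := st_pol2 h2 h3 hx hy
  have a3 := st_pol2 h2 h3 hz hy
  simp only [st_add_left, st_add_right, tf_add_left, tf_add_right, st_comm z x, tf_comm z x, st_comm z y,
    tf_comm z y] at a1 a3
  funext i
  have b1 := congrFun a1 i
  have b2 := congrFun a2 i
  have b3 := congrFun a3 i
  simp only [Pi.add_apply, Pi.smul_apply, smul_eq_mul] at b1 b2 b3 ⊢
  have key : (2 : k) * (st x (st y z) i + st y (st x z) i + st z (st x y) i -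
      (2 / 3 * tf x y * z i + 2 / 3 * tf x z * y i + 2 / 3 * tf y z * x i)) = 0 := by
    linear_combination b1 - b2 - b3
  exact sub_eq_zero.1 ((mul_eq_zero.1 key).resolve_left h2)

/-- **(E4)** -/
theorem e4 (h2 : (2 : k) ≠ 0) (h3 : (3 : k) ≠ 0) {x y z w : I27 → k} (hx : tr1 x = 0) (hy : tr1 y = 0)
    (hz : tr1 z = 0) (hw : tr1 w = 0) : tf (st x y) (st z w) + tf (st x z) (st y w) + tf (st x w) (st y z) =
      2 / 3 * (tf x y * tf z w + tf x z * tf y w + tf x w * tf y z) := by
  have h := congrArg (fun v => tf v w) (st_pol h2 h3 hx hy hz)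
  simp only [tf_add_left, tf_smul_left] at h
  have e1 : tf (st x (st y z)) w = tf (st x w) (st y z) := by
    rw [st_comm, tf_st_assoc x (tr1_st h3 hy z) hw, tf_comm]
  have e2 : tf (st y (st x z)) w = tf (st x z) (st y w) := by
    rw [st_comm, tf_st_assoc y (tr1_st h3 hx z) hw]
  have e3 : tf (st z (st x y)) w = tf (st x y) (st z w) := by
    rw [st_comm, tf_st_assoc z (tr1_st h3 hx y) hw]
  rw [e1, e2, e3] at h
  linear_combination h

end Cfsg.Agent.R2.F4N
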